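import Mathlib

/-! Consecutive divisors of `2 ^ a · 5 · q ^ b`. -/

set_option autoImplicit false

namespace Cfsg.Agent.K3

open Finset

theorem geom_odd {x : ℤ} (hx : x % 2 = 1) (j : ℕ) : (∑ i ∈ range j, x ^ i) % 2 = j % 2 := by
  induction j with
  | zero => simp
  | succ j ih =>
    have : x ^ j % 2 = 1 := Int.odd_iff.1 (Int.odd_iff.2 hx).pow
    rw [sum_range_succ]; push_cast; omega

theorem dvd_five {s : ℤ} {i : ℕ} (hs : s % 2 = 1) (h : s ∣ 5 * 2 ^ i) : |s| ≤ 5 :=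
  Int.le_of_dvd (by norm_num) ((abs_dvd _ _).2 ((IsCoprime.pow_right (n := i)
    (show IsCoprime s 2 from ⟨1, -(s / 2), by omega⟩)).dvd_of_dvd_mul_right h))

theorem odd_case {x : ℤ} (hx : x % 2 = 1) (h5 : 5 ≤ |x|) {k i : ℕ}
    (h : x ^ (2 * k + 3) - 1 ∣ 5 * 2 ^ i) : False := by
  have h1 := geom_sum_mul x (2 * k + 3)
  have h2 := dvd_five (by rw [geom_odd hx]; omega) ((Dvd.intro _ h1).trans h)
  have h3 : |x| ^ 3 ≤ |x| ^ (2 * k + 3) := pow_le_pow_right₀ (by omega) (by omega)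
  have h4 : |x ^ (2 * k + 3)| ≤ |x ^ (2 * k + 3) - 1| + 1 := by
    simpa using abs_add_le (x ^ (2 * k + 3) - 1) 1
  have h6 : |x - 1| ≤ |x| + 1 := by simpa using abs_sub x 1
  rw [← h1, abs_mul, abs_pow] at h4
  have := mul_le_mul h2 h6 (abs_nonneg _) (by norm_num)
  nlinarith [mul_le_mul h5 h5 (by norm_num) (by omega : (0 : ℤ) ≤ |x|)]

/-- `q ^ j ± 1` divides `5 · 2 ^ i` only for `j ≤ 1` -/
theorem le_one {q j i : ℕ} (hq : q.Prime) (h5 : 5 ≤ q) {s : ℤ} (hs : s = 1 ∨ s = -1)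
    (h : (q : ℤ) ^ j + s ∣ 5 * 2 ^ i) : j ≤ 1 := by
  have h2 := hq.eq_two_or_odd
  by_contra! hj
  rcases Nat.even_or_odd' j with ⟨k, rfl | rfl⟩
  · have h3 : (q : ℤ) ^ k % 2 = 1 := Int.odd_iff.1 (Int.odd_iff.2 (by omega)).pow
    have h4 : (5 : ℤ) ≤ q ^ k := le_trans (by exact_mod_cast h5) (le_self_pow₀ (by omega) (by omega))
    have h9 : ¬ (3 : ℤ) ∣ q ^ k := fun e => by
      have := (Nat.prime_dvd_prime_iff_eq Nat.prime_three hq).1
        (Int.natCast_dvd_natCast.1 (Int.prime_three.dvd_of_dvd_pow e))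
      omega
    rw [pow_mul'] at h
    generalize (q : ℤ) ^ k = y at *
    rcases hs with rfl | rfl
    · obtain ⟨u, rfl⟩ : ∃ u, y = 2 * u + 1 := ⟨y / 2, by omega⟩
      have := dvd_five (s := 2 * (u * u + u) + 1) (by omega) (Dvd.dvd.trans ⟨2, by ring⟩ h)
      rw [abs_le] at this
      nlinarith
    · have h6 : (3 : ℤ) ∣ y ^ 2 + -1 := by
        obtain ⟨u, rfl | rfl⟩ : ∃ u, y = 3 * u + 1 ∨ y = 3 * u + 2 := ⟨y / 3, by omega⟩
        exacts [⟨3 * u * u + 2 * u, by ring⟩, ⟨3 * u * u + 4 * u + 1, by ring⟩]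
      have := Int.prime_three.dvd_of_dvd_pow ((Int.prime_three.dvd_or_dvd (h6.trans h)).resolve_left
        (by norm_num))
      omega
  · obtain ⟨k, rfl⟩ : ∃ m, k = m + 1 := ⟨k - 1, by omega⟩
    rcases hs with rfl | rfl
    · refine odd_case (x := -q) (k := k) (i := i) (by omega) (by simpa using h5) ?_
      rw [Odd.neg_pow ⟨k + 1, by ring⟩, ← neg_add', neg_dvd]; exact h
    · exact odd_case (x := q) (k := k) (i := i) (by omega) (by simpa using h5) h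

theorem odd_dvd {u a m : ℕ} (hu : u % 2 = 1) (h : u ∣ 2 ^ a * m) : u ∣ m :=
  ((Nat.coprime_two_right.2 (Nat.odd_iff.2 hu)).pow_right a).dvd_of_dvd_mul_left h

theorem cop_dvd {u q b m : ℕ} (hq : q.Prime) (hu : ¬ q ∣ u) (h : u ∣ m * q ^ b) : u ∣ m :=
  ((hq.coprime_iff_not_dvd.2 hu).symm.pow_right b).dvd_of_dvd_mul_right h

theorem le_five {u : ℕ} (h : u ∣ 5) : u = 1 ∨ u = 5 := (Nat.dvd_prime Nat.prime_five).1 h

/-- Aurifeuillean factorisation -/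
theorem aurif {q k b : ℕ} (hq : q.Prime) (h : 2 ^ (4 * k + 2) + 1 ∣ 5 * q ^ b) :
    k = 0 ∨ (k = 1 ∧ q = 13) := by
  rcases k with _ | _ | k
  · omega
  · exact Or.inr ⟨rfl, ((Nat.prime_dvd_prime_iff_eq (by norm_num) hq).1
      (Nat.Prime.dvd_of_dvd_pow (by norm_num) ((Nat.Coprime.dvd_of_dvd_mul_left (by norm_num)
        (Dvd.dvd.trans (by norm_num : 13 ∣ _) h))))).symm⟩
  exfalso
  obtain ⟨t, ht⟩ : ∃ t, 2 ^ k = t + 1 := ⟨2 ^ k - 1, by have := Nat.one_le_two_pow (n := k); omega⟩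
  have e : 2 ^ (4 * (k + 1 + 1) + 2) + 1 =
      (32 * t * t + 56 * t + 25) * (32 * t * t + 56 * t + 25 + 2 ^ (k + 4)) := by
    rw [show 4 * (k + 1 + 1) + 2 = k * 4 + 10 by ring, pow_add, pow_mul, pow_add, ht]; ring
  rw [e] at h
  generalize hA : 32 * t * t + 56 * t + 25 = A at h
  have hA2 : A % 2 = 1 := by rw [← hA, mul_assoc]; omega
  have k1 : ∀ u, 25 ≤ u → u ∣ 5 * q ^ b → q ∣ u := fun u h1 h2 => by
    by_contra h3
    have := le_five (cop_dvd hq h3 h2); omega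
  have h1 := k1 A (by omega) ((Dvd.intro _ rfl).trans h)
  have h2 := (Nat.prime_dvd_prime_iff_eq hq Nat.prime_two).1 (hq.dvd_of_dvd_pow ((Nat.dvd_add_right h1).1
    (k1 _ (le_add_right (by omega)) ((Dvd.intro_left _ rfl).trans h))))
  rw [h2] at h1
  omega

/-- the degrees in a principal `3`-block of defect one -/
theorem pairs_cases {a b q n : ℕ} (hq : q.Prime) (h5 : 5 ≤ q) (h : n * (n + 1) ∣ 2 ^ a * (5 * q ^ b))
    (h3 : n % 3 = 1) (h1 : n ≠ 1) : n = 4 ∨ n = q ∨ n + 1 = q ∨ (n = 64 ∧ q = 13) := by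
  have key : ∀ u v : ℕ, u % 2 = 1 → u * v ∣ 2 ^ a * (5 * q ^ b) → u.Coprime v → ∀ s : ℤ,
      s = 1 ∨ s = -1 → (u : ℤ) + s = v →
      u = 1 ∨ u = 5 ∨ u = q ∨ (5 ∣ u ∧ u ∣ 5 * q ^ b ∧ ∃ i, v = 2 ^ i) := fun u v u2 huv hc s hs e => by
    have hu := odd_dvd u2 ((Dvd.intro _ rfl).trans huv)
    by_cases h6 : q ∣ u
    swap
    · have := le_five (cop_dvd hq h6 hu); omega
    have hv : v ∣ 2 ^ a * 5 := cop_dvd hq (fun h7 => hq.one_lt.ne' (Nat.eq_one_of_dvd_coprimes hc h6 h7))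
      (mul_assoc _ 5 _ ▸ (Dvd.intro_left _ rfl).trans huv)
    by_cases h7 : 5 ∣ u
    · obtain ⟨i, -, hi⟩ := (Nat.dvd_prime_pow Nat.prime_two).1 (cop_dvd (b := 1) Nat.prime_five
        (fun h8 => by simpa using Nat.eq_one_of_dvd_coprimes hc h7 h8) hv)
      exact Or.inr (Or.inr (Or.inr ⟨h7, hu, i, hi⟩))
    obtain ⟨j, -, rfl⟩ := (Nat.dvd_prime_pow hq).1 (cop_dvd (b := 1) Nat.prime_five h7 (mul_comm 5 _ ▸ hu))
    have := le_one (j := j) (i := a) hq h5 hs (by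
      rw [mul_comm] at hv; rw [← Nat.cast_pow, e]; exact_mod_cast hv)
    interval_cases j <;> simp
  have hc : n.Coprime (n + 1) := by simp
  have k2 : ∀ i : ℕ, (i % 4 = 0 ∧ 2 ^ i % 15 = 1) ∨ (i % 4 = 1 ∧ 2 ^ i % 15 = 2) ∨
      (i % 4 = 2 ∧ 2 ^ i % 15 = 4) ∨ (i % 4 = 3 ∧ 2 ^ i % 15 = 8) := fun i => by
    induction i with
    | zero => simp
    | succ i ih => rw [pow_succ]; omega
  rcases Nat.mod_two_eq_zero_or_one n with h2 | h2
  · rcases key (n + 1) n (by omega) (mul_comm n _ ▸ h) hc.symm (-1) (by omega) (by omega) with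
      e | e | e | ⟨e1, e2, i, rfl⟩
    iterate 3 omega
    have := k2 i
    obtain ⟨k, rfl⟩ : ∃ k, i = 4 * k + 2 := ⟨i / 4, by omega⟩
    rcases aurif hq e2 with rfl | ⟨rfl, rfl⟩ <;> simp
  · rcases key n (n + 1) h2 h hc 1 (by omega) (by omega) with e | e | e | ⟨e1, -, i, e⟩
    iterate 3 omega
    have := k2 i
    omega

end Cfsg.Agent.K3
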